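import Mathlib
import Cfsg.Agent.Lib.Helper49.HUP.Defs
import Cfsg.Agent.Lib.Helper83.Idx2

/-!
# HUP project (S3361): package [EXC]

A solvable group of order 24, 48, 120 or 528 with at most one involution has a normal subgroup of
index two, or is `SL(2,3)` (order 24) or `SL(2,3) × C₅` (order 120).
-/

set_option autoImplicit false

namespace Cfsg.Agent.Lib.Helper41.HUP

open Cfsg.Agent.Lib.Helper49.HUP

universe v

theorem exc_fact_two (n k : ℕ) (hn : n ≠ 0) (h1 : 2 ^ k ∣ n) (h2 : ¬ 2 ^ (k + 1) ∣ n) :
    n.factorization 2 = k := by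
  have a := (Nat.Prime.pow_dvd_iff_le_factorization Nat.prime_two hn).mp h1
  have b : ¬ k + 1 ≤ n.factorization 2 := fun h =>
    h2 ((Nat.Prime.pow_dvd_iff_le_factorization Nat.prime_two hn).mpr h)
  omega

theorem exc_pullback {G : Type v} [Group G] (O : Subgroup G) [O.Normal]
    (h : HasIdx2N (G ⧸ O)) : HasIdx2N G := by
  obtain ⟨N, hN, hi⟩ := h
  refine ⟨N.comap (QuotientGroup.mk' O), hN.comap _, ?_⟩
  rw [Subgroup.index_comap_of_surjective _ (QuotientGroup.mk'_surjective O), hi]

theorem exc_idx2N_of_idx2 {G : Type v} [Group G] (h : Cfsg.Agent.Lib.Helper83.HasIdx2 G) :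
    HasIdx2N G := by
  obtain ⟨N, hN⟩ := h
  exact ⟨N, Subgroup.normal_of_index_eq_two hN, hN⟩

theorem pkgExc (hq : PkgOddQ.{v}) (hs : PkgSylQ.{v}) (h16 : PkgCore16.{v}) (h8 : PkgCore8.{v})
    (h5 : PkgSplit5.{v}) : PkgExc.{v} := by
  intro G _ _ hsol hinv hcard
  classical
  have : Fact (Nat.Prime 2) := ⟨Nat.prime_two⟩
  obtain ⟨P⟩ : Nonempty (Sylow 2 G) := inferInstance
  have heven : 2 ∣ Nat.card G := by
    rcases hcard with h | h | h | h <;> rw [h] <;> norm_num
  have hPcard := P.card_eq_multiplicity
  rcases Cfsg.Agent.Lib.Helper83.sylow2_cyc_or_quat hinv P with hc | ⟨n, hn, ⟨e⟩⟩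
  · left
    exact exc_idx2N_of_idx2 (Cfsg.Agent.Lib.Helper83.hasIdx2_of_hasNormalPComplement
      (Cfsg.Agent.Lib.Helper83.hasNormalPComplement_of_cyclic P hc heven) heven)
  · -- quaternion Sylow 2-subgroup
    have hne : NeZero (2 ^ n) := ⟨by positivity⟩
    have hPq : Nat.card (P : Subgroup G) = 4 * 2 ^ n := by
      rw [Nat.card_congr e.toEquiv, Nat.card_eq_fintype_card, QuaternionGroup.card]
    obtain ⟨O, hOn, hOodd, hfree⟩ := hq (G := G)
    have hXsol : Group.IsSolvable (G ⧸ O) := inferInstance
    obtain ⟨P', ⟨e'⟩⟩ := hs O hOodd P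
    have hmul : Nat.card G = Nat.card (G ⧸ O) * Nat.card O :=
      Subgroup.card_eq_card_quotient_mul_card_subgroup O
    have h8or16 : (Nat.card G = 24 ∨ Nat.card G = 120) ∧ n = 1 ∨
        (Nat.card G = 48 ∨ Nat.card G = 528) ∧ n = 2 := by
      rcases hcard with h | h | h | h
      · left
        refine ⟨Or.inl h, ?_⟩
        rw [h, exc_fact_two 24 3 (by norm_num) (by norm_num) (by norm_num)] at hPcard
        rw [hPcard] at hPq
        have : 2 ^ n = 2 ^ 1 := by omega
        exact Nat.pow_right_injective (le_refl 2) this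
      · right
        refine ⟨Or.inl h, ?_⟩
        rw [h, exc_fact_two 48 4 (by norm_num) (by norm_num) (by norm_num)] at hPcard
        rw [hPcard] at hPq
        have : 2 ^ n = 2 ^ 2 := by omega
        exact Nat.pow_right_injective (le_refl 2) this
      · left
        refine ⟨Or.inr h, ?_⟩
        rw [h, exc_fact_two 120 3 (by norm_num) (by norm_num) (by norm_num)] at hPcard
        rw [hPcard] at hPq
        have : 2 ^ n = 2 ^ 1 := by omega
        exact Nat.pow_right_injective (le_refl 2) this
      · right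
        refine ⟨Or.inr h, ?_⟩
        rw [h, exc_fact_two 528 4 (by norm_num) (by norm_num) (by norm_num)] at hPcard
        rw [hPcard] at hPq
        have : 2 ^ n = 2 ^ 2 := by omega
        exact Nat.pow_right_injective (le_refl 2) this
    rcases h8or16 with ⟨hG, rfl⟩ | ⟨hG, rfl⟩
    · -- order 8
      have e1 : (P : Subgroup G) ≃* QuaternionGroup 2 := e
      have hXdvd : Nat.card (G ⧸ O) ∣ 120 := by
        have h1 : Nat.card (G ⧸ O) ∣ Nat.card G := ⟨_, hmul⟩
        rcases hG with h | h
        · rw [h] at h1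
          exact h1.trans (by norm_num)
        · rw [h] at h1
          exact h1
      rcases h8 hXsol hfree ⟨P', ⟨e'.symm.trans e1⟩⟩ hXdvd with hX | ⟨hX24, ⟨eX⟩⟩
      · left
        exact exc_pullback O hX
      · rcases hG with h | h
        · -- |G| = 24: O is trivial
          right; left
          refine ⟨h, ?_⟩
          have hO1 : Nat.card O = 1 := by
            rw [h, hX24] at hmul
            omega
          have hObot : O = ⊥ := Subgroup.card_eq_one.mp hO1
          have hinj : Function.Injective (QuotientGroup.mk' O) := by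
            rw [← MonoidHom.ker_eq_bot_iff, QuotientGroup.ker_mk', hObot]
          exact ⟨(MulEquiv.ofBijective (QuotientGroup.mk' O)
            ⟨hinj, QuotientGroup.mk'_surjective O⟩).trans eX⟩
        · -- |G| = 120: |O| = 5
          have hO5 : Nat.card O = 5 := by
            rw [h, hX24] at hmul
            omega
          rcases h5 h O hO5 ⟨eX⟩ with h' | h'
          · left
            exact h'
          · right; right
            exact ⟨h, h'⟩
    · -- order 16
      have e1 : (P : Subgroup G) ≃* QuaternionGroup 4 := e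
      left
      exact exc_pullback O (h16 hXsol hfree ⟨P', ⟨e'.symm.trans e1⟩⟩)

end Cfsg.Agent.Lib.Helper41.HUP
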